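/-
P28: the output of the transvection analysis, without an operator group.
-/
import Cfsg.Agent.P19.EA
import Cfsg.Agent.P19.EB

set_option autoImplicit false
set_option linter.unusedSectionVars false
set_option linter.style.haveILetI false

namespace Cfsg.Agent.P28

open Subgroup Cfsg Cfsg.Agent Cfsg.Agent.FT Cfsg.Agent.P19 Cfsg.Agent.P19.K
open Cfsg.Agent.H7.SC (oz jj)
open Cfsg.Agent.H5 (elemMax)
open scoped commutatorElement

universe u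

variable {X : Type u} [Group X] [Finite X]

/-- The conjugates of `z` under `N(T)`. -/
def Out (T : Subgroup X) (y z : X) : Prop := ∃ H : Subgroup X, z ∉ H ∧ ∀ b ∈ 𝐍(T),
  b * z * b⁻¹ ∈ 𝐂[y] ∧ b * z * b⁻¹ ∈ 𝐂[z] ∧ (b * z * b⁻¹ = z ∨ b * z * b⁻¹ ∈ H)

theorem cfg_out {T P R : Subgroup X} {y z : X} (c : EA.Cfg T P R y z) {s : X}
    (hs : s ∈ T ⊓ 𝐂[z]) (h1 : s * y * s⁻¹ ∈ R) (h2 : s * y * s⁻¹ ∉ 𝐂[y]) : Out T y z := by
  obtain ⟨L, ⟨l1, l2, l3⟩, hm⟩ := Set.exists_min_image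
    {L : Subgroup X | L ≤ T ∧ 𝐍(T) ≤ 𝐍(L) ∧ ¬ L ≤ P} (fun L => 𝐨(L)) (Set.toFinite _)
    ⟨T, le_rfl, le_rfl, fun h => c.tv.nc (c.RT.trans (h.trans c.Py))⟩
  haveI := c.nil (le_refl T)
  have m1 : ⁅L, T⁆ < L := Agent.L.commutator_lt_of_isNilpotent l1 ((le_norm_self T).trans l2)
    fun e => l3 (e ▸ bot_le)
  have m2 : 𝐍(T) ≤ 𝐍(⁅L, T⁆) := H1.le_normalizer_commutator l2 le_rfl
  have m3 : ⁅L, T⁆ ≤ P := by_contra fun e =>
    (H1.card_lt_of_lt m1).not_ge (hm _ ⟨m1.le.trans l1, m2, e⟩)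
  have m4 : L ≤ R := (le_inf l1 (comm_le_right_iff.1
    ((commutator_mono le_rfl c.PT).trans m3))).trans c.nP
  have m5 : z ∈ ⁅L, T⁆ := by
    obtain ⟨n, hn, e⟩ := not_forall₂.1 l3
    rw [commutator_comm, ← c.tv.eq (m4 hn) fun r => e (c.mem (l1 hn) r)]
    exact commutator_mem_commutator (c.RT c.tv.vQ) hn
  have m6 : ∀ γ ∈ 𝐍(T), γ * z * γ⁻¹ ∈ P := fun γ h => m3 ((mem_normalizer_iff.1 (m2 h) z).1 m5)
  have m7 : ∀ γ ∈ 𝐍(T), γ * z * γ⁻¹ ≠ z → γ * y * γ⁻¹ ∈ 𝐂[y] := fun γ h =>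
    c.dih h (by
      have := conj_mem_conj (mem_cent1_comm.1 (c.Py (m6 _ (inv_mem h)))) γ
      rwa [cent1_conj, conj_inv_conj] at this) (mem_cent1_comm.1 (c.Py (m6 γ h)))
  refine ⟨⁅P, P⁆, c.nz, fun b hb' => ⟨c.Py (m6 b hb'), c.tv.cz (c.PR (m6 b hb')),
    (em _).imp_right fun e => ?_⟩⟩
  have b1 : b * y * b⁻¹ ∈ P := c.mem (c.yc hb') (m7 b hb' e)
  have b2 : s * y * s⁻¹ ∈ 𝐂[b * y * b⁻¹] := by
    have := conj_mem_conj (mem_cent1_comm.1 (m7 (s⁻¹ * b)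
      (mul_mem (inv_mem (le_norm_self T hs.1)) hb') fun r => e ?_)) s
    · rwa [cent1_conj, conj_conj, mul_inv_cancel_left, ← cent1_conj] at this
    · nth_rewrite 2 [← mem_cent1_iff_conj.1 hs.2]
      nth_rewrite 2 [← r]
      group
  obtain ⟨n, hn, n1⟩ := not_forall₂.1 fun r : L ≤ P ^ᵍ b =>
    l3 (conj_le_conj_iff.1 ((conj_eq_of_mem_norm (l2 hb')).le.trans r))
  rw [c.conjP hb'] at n1
  rw [← (c.tv.conj b).eq (conj_mono m4 b ((conj_eq_of_mem_norm (l2 hb')).ge hn))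
    fun r => n1 (mem_inf.2 ⟨l1 hn, r⟩)]
  by_cases n2 : n ∈ 𝐂[y]
  · exact commutator_mem_commutator b1 (c.mem (l1 hn) n2)
  · have n3 := c.mem (mul_mem (c.RT (m4 hn)) (c.RT h1)) (c.tv.mul (m4 hn) h1 n2 h2)
    have := commutator_mem_commutator b1 n3
    rwa [br_mul, br1.2 b2, mul_one, mul_inv_cancel, mul_one] at this

theorem ea_out {T A : Subgroup X} {y a g : X} (e : E2 T A y a g)
    (hS : ¬ T ⊓ 𝐂[⁅y, a⁆] ≤ 𝐍(jj (T ⊓ 𝐂[y]))) : Out T y ⁅y, a⁆ := by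
  have KC := kcStmt.{u}
  have idx := e.idx
  have hA := e.hA
  have gn := e.gn
  generalize hP : T ⊓ 𝐂[y] = P at idx hA gn hS
  have nP : T ⊓ 𝐍(P) ≤ T ⊓ 𝐍(jj P) :=
    inf_le_inf_left T (H5.normalizer_le_normalizer_thompsonSubgroupOf P)
  have RS : T ⊓ 𝐂[⁅y, a⁆] ≠ T ⊓ 𝐍(jj P) := fun r => hS (r.le.trans inf_le_right)
  have RT : T ⊓ 𝐍(jj P) ≤ T := inf_le_left
  generalize T ⊓ 𝐍(jj P) = R at idx hA nP RS RT
  have mP : ∀ x, x ∈ P ↔ x ∈ T ∧ x ∈ 𝐂[y] := fun x => hP ▸ mem_inf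
  have PT : P ≤ T := fun x hx => ((mP x).1 hx).1
  have PR : P ≤ R := (le_inf PT (le_norm_self P)).trans nP
  have aR := hA.1 e.ha
  have aP : a ∉ P := fun h => e.ay ((mP a).1 h).2
  have RN : R ≤ 𝐍(P) := (normal_subgroupOf_iff_le_normalizer PR).1 (normal_of_index_eq_two idx)
  have m2 : ∀ q ∈ R, q ∉ P → a⁻¹ * q ∈ P := fun q hq h =>
    (mul2 idx (inv_mem aR) hq).2 (iff_of_false (fun r => aP (inv_mem_iff.1 r)) h)
  have tv : Tv R y ⁅y, a⁆ := ⟨PR ((mP y).2 ⟨e.yT, self_mem_cent1 y⟩), e.yy, fun q hq => by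
    by_cases h : q ∈ P
    · exact .inl (br1.2 ((mP q).1 h).2)
    · refine .inr ?_
      rw [← mul_inv_cancel_left a q, br_mul, br1.2 ((mP _).1 (m2 q hq h)).2]
      simp, fun h => e.ay (h aR)⟩
  have gz := e.gz
  generalize ⁅y, a⁆ = z at tv RS gz
  obtain ⟨s, s1, s2, s3⟩ := H1.exists_mem_normalizer_of_lt (isNilpotent_of_isPGroup Nat.prime_two
    (e.two.to_le (inf_le_left : T ⊓ 𝐂[z] ≤ T))) (lt_of_le_of_ne (le_inf RT tv.cz) RS.symm)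
  have tv' := tv.conjN s2
  rw [mem_cent1_iff_conj.1 s1.2] at tv'
  have vP : s * y * s⁻¹ ∉ P := fun h => by
    have t := (tv'.mono PR h fun r => s3 (nP (mem_inf.2 ⟨s1.1, inv_mem_iff.1
      (mem_norm_of_conj_le (le_conj_iff.1 (by
        nth_rewrite 2 [← hP]
        rw [conj_inf, conj_eq_of_mem s1.1, ← cent1_conj]
        exact le_inf PT r)))⟩))).conjN gn
    refine gz (mem_cent1_comm.1 (KC X P A (hA.1.trans RN)
      (H5.mem_elemMax_of_le (sup_le PR hA.1) hA le_sup_right) ?_ _ t.vQ t.vv _ t.br t.nc e.ha))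
    exact relIndex_eq_two_iff_exists_notMem_and'.2 ⟨a⁻¹, inv_mem e.ha,
      fun r => aP (inv_mem_iff.1 r), fun b hb => (em (b ∈ P)).elim .inr
        fun r => .inl (m2 b (hA.1 hb) r)⟩
  have zc : z ∈ 𝐂(P) := mem_cent_iff_cent1.2 (PR.trans tv.cz)
  refine cfg_out ⟨e.two, hP.symm, RT, tv, nP, fun h => gz ?_⟩ s1 tv'.vQ
    (fun r => vP ((mP _).2 ⟨RT tv'.vQ, r⟩))
  have c0 : ⁅P, zpowers (s * y * s⁻¹)⁆ ≤ 𝐂(P) :=
    H1.commutator_zpowers_le (H1.le_normalizer_centralizer RN tv'.vQ) fun p hp => by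
      rw [← commutatorElement_inv]
      exact inv_mem ((tv'.br p (PR hp)).elim (fun r => r ▸ one_mem _) fun r => r ▸ zc)
  have c1 : ⁅P, P⁆ ≤ 𝐂[s * y * s⁻¹] := by
    rw [← cent_zpowers, ← comm_eq_bot_iff]
    refine commutator_commutator_eq_bot_of_rotate (comm_eq_bot_iff.2 c0) (comm_eq_bot_iff.2 ?_)
    rwa [commutator_comm]
  have c2 := c1 ((mem_normalizer_iff.1 (norm_le_norm_der P gn) z).1 h)
  have c3 : g * z * g⁻¹ ∈ 𝐂(P) :=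
    (mem_normalizer_iff.1 (H1.le_normalizer_centralizer le_rfl gn) z).1 zc
  have c4 := mul_mem (mem_cent1_comm.1 c2) (inv_mem (mem_cent_iff_cent1.1 c3 (m2 _ tv'.vQ vP)))
  rw [mul_inv_rev a⁻¹, inv_inv, mul_inv_cancel_left] at c4
  exact mem_cent1_comm.1 c4

open EB in
theorem eb_out {T A : Subgroup X} {y a g : X} (s : E2 T A y a g)
    (hS : T ⊓ 𝐂[⁅y, a⁆] ≤ 𝐍(jj (T ⊓ 𝐂[y]))) : Out T y ⁅y, a⁆ := by
  have hKC := kcStmt.{u}
  have h1 := jx hKC s hS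
  have rX : rr T y ≤ T ⊓ 𝐍(jj (rr T y)) :=
    le_inf inf_le_left ((le_norm_self _).trans (H5.normalizer_le_normalizer_thompsonSubgroupOf _))
  have h2 : jj (rr T y) = jj (T ⊓ 𝐍(jj (rr T y))) := H5.thompsonSubgroupOf_eq_of_le rX
    ((le_inf ((jj_le _).trans inf_le_left) h1).trans (le_inf inf_le_left hS))
  have h3 : T ⊓ 𝐍(jj (rr T y)) = T := by
    by_contra k
    refine (lt_inf_norm_of_isNilpotent (isNilpotent_of_isPGroup Nat.prime_two s.two)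
      (lt_of_le_of_ne inf_le_left k)).not_ge (inf_le_inf_left _ ?_)
    conv_rhs => rw [h2]
    exact H5.normalizer_le_normalizer_thompsonSubgroupOf _
  rw [h3] at h2
  have h4 : 𝐍(T) ≤ 𝐍(jj (rr T y)) := h2 ▸ H5.normalizer_le_normalizer_thompsonSubgroupOf _
  refine ⟨𝐂[a] ^ᵍ g⁻¹, by rw [mem_conj, inv_inv]; exact s.gz, fun b hb => ⟨?_, rz s (jj_le _ ?_),
    orth hKC s hb (h4 hb)⟩⟩
  · have := conj_mono ((jj_le _).trans (rz s)) b ((conj_eq_of_mem_norm (h4 hb)).ge (yJ s))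
    rw [← cent1_conj] at this
    exact mem_cent1_comm.1 this
  · exact conj_eq_of_mem_norm (h4 hb) ▸ conj_mem_conj (zJ s) b

theorem e2_out {T A : Subgroup X} {y a g : X} (s : E2 T A y a g) : Out T y ⁅y, a⁆ :=
  (em _).elim (eb_out s) (ea_out s)

end Cfsg.Agent.P28
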